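import Groth.Agent.Fcompl.H551.StalkRes
import Groth.Agent.Ega4A.CplFlat
import Mathlib.RingTheory.Flat.EquationalCriterion
import Mathlib.RingTheory.RingHom.Flat

/-!
# Flatness of completed maps and of the stalks of a formal spectrum

* `flat_complMap`: for a flat ring map `g : S → T` of Noetherian rings and ideals `I ⊆ S`, `K ⊆ T` with
  `I T ⊆ K`, the completed map `AdicCompletion I S → AdicCompletion K T` is flat.
* `complMap_comp`: functoriality of `FSch.complMap`.
* `range_le_of_dvd`, `mem_stalkSubring_iff`, `exists_range_of_forall_mem`: `stalkSubring` is the directed union of the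
  images of the `A_{f}`.
* `flat_cAwayToAtPrime`, `flat_stalkSubring`: `A{S⁻¹}` is flat over every `A_{f}` and over `A_{S}`.
-/

set_option autoImplicit false
universe u

namespace Groth.Agent.Fcompl.H558.FlatCompl

open FSch TensorProduct
open Groth.Agent.Fcompl.H551.StalkRes (evalₐ_complMap complMap_algebraMap)

section General

variable {S T : Type u} [CommRing S] [CommRing T] (I : Ideal S) (K : Ideal T) (g : S →+* T)

/-- `S → Ŝ / I^n Ŝ` is surjective when `I` is finitely generated. -/
theorem surjective_algebraMap_quotient (hI : I.FG) (n : ℕ) :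
    Function.Surjective (algebraMap S (AdicCompletion I S ⧸
      (I ^ n).map (algebraMap S (AdicCompletion I S)))) := by
  intro y
  obtain ⟨x, rfl⟩ := Ideal.Quotient.mk_surjective y
  obtain ⟨a, ha⟩ := Submodule.Quotient.mk_surjective _ (AdicCompletion.eval I S n x)
  refine ⟨a, ?_⟩
  have h1 : x - algebraMap S (AdicCompletion I S) a ∈
      LinearMap.ker (AdicCompletion.eval I S n) := by
    rw [LinearMap.mem_ker, map_sub, sub_eq_zero, ← ha]
    rfl
  rw [← AdicCompletion.pow_smul_top_eq_ker_eval hI,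
    Ideal.smul_top_eq_map, Submodule.restrictScalars_mem] at h1
  exact (Ideal.Quotient.eq.mpr h1).symm

/-- The completion of a flat map of Noetherian rings is flat. -/
theorem flat_complMap [IsNoetherianRing S] [IsNoetherianRing T] (h : I.map g ≤ K) (hg : g.Flat) :
    (complMap I K g h).Flat := by
  have hS : IsNoetherianRing (AdicCompletion I S) := Groth.Agent.S0543.result S I
  have hT : IsNoetherianRing (AdicCompletion K T) := Groth.Agent.S0543.result T K
  have hTc : IsAdicComplete (K.map (algebraMap T (AdicCompletion K T))) (AdicCompletion K T) :=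
    AdicCompletion.isAdicComplete_self K (IsNoetherian.noetherian K)
  let _ : Algebra S T := g.toAlgebra
  have _ : Module.Flat S T := hg
  let _ : Algebra (AdicCompletion I S) (AdicCompletion K T) := (complMap I K g h).toAlgebra
  have _ : IsScalarTower S T (AdicCompletion K T) := IsScalarTower.of_algebraMap_eq fun x => rfl
  have _ : Module.Flat S (AdicCompletion K T) := Module.Flat.trans S T (AdicCompletion K T)
  have _ : IsScalarTower S (AdicCompletion I S) (AdicCompletion K T) :=
    IsScalarTower.of_algebraMap_eq fun x => (complMap_algebraMap I K g h x).symm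
  change Module.Flat (AdicCompletion I S) (AdicCompletion K T)
  apply Groth.Agent.Ega43.FlatAdic.flat_of_forall_flat_quotient_pow (S := AdicCompletion K T)
    (I.map (algebraMap S (AdicCompletion I S)))
  · have h1 : (I.map (algebraMap S (AdicCompletion I S))).map
        (algebraMap (AdicCompletion I S) (AdicCompletion K T)) =
        (I.map g).map (algebraMap T (AdicCompletion K T)) := by
      rw [Ideal.map_map, Ideal.map_map]
      exact congrArg (fun φ => Ideal.map φ I) (RingHom.ext fun x => complMap_algebraMap I K g h x)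
    rw [h1]
    exact (Ideal.map_mono h).trans (IsAdicComplete.le_jacobson_bot _)
  · intro n
    rw [← Ideal.map_pow]
    exact Groth.Agent.Ega4A.CplFlat.flat_quotient_tensor (I ^ n)
      (surjective_algebraMap_quotient I (IsNoetherian.noetherian I) n)

end General

section Comp

variable {R S T : Type u} [CommRing R] [CommRing S] [CommRing T] (H : Ideal R) (I : Ideal S)
  (K : Ideal T) (f : R →+* S) (g : S →+* T)

theorem complMap_comp (hf : H.map f ≤ I) (hg : I.map g ≤ K) (hgf : H.map (g.comp f) ≤ K)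
    (x : AdicCompletion H R) :
    complMap I K g hg (complMap H I f hf x) = complMap H K (g.comp f) hgf x := by
  apply AdicCompletion.ext_evalₐ
  intro n
  rw [evalₐ_complMap, evalₐ_complMap, evalₐ_complMap]
  obtain ⟨y, hy⟩ := Ideal.Quotient.mk_surjective (AdicCompletion.evalₐ H n x)
  rw [← hy]
  rfl

end Comp

section Stalk

variable (A : Type u) [CommRing A] (J : Ideal A) (𝔭 : Ideal A) [𝔭.IsPrime]

/-- For `f ∣ g`, the localization map `A_f → A_g`. -/
noncomputable def awayMap (f g : A) (h : f ∣ g) : Localization.Away f →+* Localization.Away g :=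
  IsLocalization.Away.lift f
    (isUnit_of_dvd_unit (map_dvd (algebraMap A (Localization.Away g)) h)
      (IsLocalization.Away.algebraMap_isUnit g))

theorem awayMap_comp (f g : A) (h : f ∣ g) :
    (awayMap A f g h).comp (algebraMap A (Localization.Away f)) = algebraMap A (Localization.Away g) :=
  IsLocalization.Away.lift_comp f _

@[simp]
theorem awayMap_algebraMap (f g : A) (h : f ∣ g) (a : A) :
    awayMap A f g h (algebraMap A (Localization.Away f) a) = algebraMap A (Localization.Away g) a :=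
  RingHom.congr_fun (awayMap_comp A f g h) a

theorem map_awayMap_le (f g : A) (h : f ∣ g) :
    (J.map (algebraMap A (Localization.Away f))).map (awayMap A f g h) ≤
      J.map (algebraMap A (Localization.Away g)) := by
  rw [Ideal.map_map, awayMap_comp]

/-- For `f ∣ g`, the canonical map `A_{f} → A_{g}`. -/
noncomputable def cAwayMap (f g : A) (h : f ∣ g) : cAway A J f →+* cAway A J g :=
  complMap _ _ (awayMap A f g h) (map_awayMap_le A J f g h)

theorem awayToAtPrime_comp (f : A) (hf : f ∉ 𝔭) :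
    (awayToAtPrime A 𝔭 f hf).comp (algebraMap A (Localization.Away f)) =
      algebraMap A (Localization.AtPrime 𝔭) :=
  IsLocalization.Away.lift_comp f
    (IsLocalization.map_units (Localization.AtPrime 𝔭) ⟨f, show f ∈ 𝔭.primeCompl from hf⟩)

@[simp]
theorem awayToAtPrime_algebraMap (f : A) (hf : f ∉ 𝔭) (a : A) :
    awayToAtPrime A 𝔭 f hf (algebraMap A (Localization.Away f) a) =
      algebraMap A (Localization.AtPrime 𝔭) a :=
  RingHom.congr_fun (awayToAtPrime_comp A 𝔭 f hf) a

theorem awayToAtPrime_comp_awayMap (f g : A) (hf : f ∉ 𝔭) (hg : g ∉ 𝔭) (h : f ∣ g) :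
    (awayToAtPrime A 𝔭 g hg).comp (awayMap A f g h) = awayToAtPrime A 𝔭 f hf := by
  apply IsLocalization.ringHom_ext (Submonoid.powers f)
  rw [RingHom.comp_assoc, awayMap_comp, awayToAtPrime_comp, awayToAtPrime_comp]

theorem cAwayToAtPrime_cAwayMap (f g : A) (hf : f ∉ 𝔭) (hg : g ∉ 𝔭) (h : f ∣ g) (x : cAway A J f) :
    cAwayToAtPrime A J 𝔭 g hg (cAwayMap A J f g h x) = cAwayToAtPrime A J 𝔭 f hf x := by
  have hcomp := awayToAtPrime_comp_awayMap A 𝔭 f g hf hg h
  have key := complMap_comp _ _ (J.map (algebraMap A (Localization.AtPrime 𝔭))) (awayMap A f g h)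
    (awayToAtPrime A 𝔭 g hg) (map_awayMap_le A J f g h) (map_awayToAtPrime_le A J 𝔭 g hg)
    (by rw [hcomp]; exact map_awayToAtPrime_le A J 𝔭 f hf) x
  refine key.trans ?_
  unfold cAwayToAtPrime
  congr 1
  simp only [hcomp]

theorem range_le_of_dvd (f g : A) (hf : f ∉ 𝔭) (hg : g ∉ 𝔭) (h : f ∣ g) :
    (cAwayToAtPrime A J 𝔭 f hf).range ≤ (cAwayToAtPrime A J 𝔭 g hg).range := by
  rintro _ ⟨x, rfl⟩
  exact ⟨cAwayMap A J f g h x, cAwayToAtPrime_cAwayMap A J 𝔭 f g hf hg h x⟩

theorem directed_range : Directed (· ≤ ·)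
    (fun f : {f : A // f ∉ 𝔭} => (cAwayToAtPrime A J 𝔭 f.1 f.2).range) := by
  rintro ⟨f, hf⟩ ⟨g, hg⟩
  have hfg : f * g ∉ 𝔭 := fun h => (Ideal.IsPrime.mem_or_mem ‹_› h).elim hf hg
  exact ⟨⟨f * g, hfg⟩, range_le_of_dvd A J 𝔭 f (f * g) hf hfg ⟨g, rfl⟩,
    range_le_of_dvd A J 𝔭 g (f * g) hg hfg ⟨f, mul_comm f g⟩⟩

/-- `A_{S}` is the union of the images of the `A_{f}`. -/
theorem mem_stalkSubring_iff (x : cAtPrime A J 𝔭) :
    x ∈ stalkSubring A J 𝔭 ↔ ∃ (f : A) (hf : f ∉ 𝔭), x ∈ (cAwayToAtPrime A J 𝔭 f hf).range := by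
  have : Nonempty {f : A // f ∉ 𝔭} := ⟨⟨1, fun h => Ideal.IsPrime.ne_top ‹_› ((Ideal.eq_top_iff_one _).2 h)⟩⟩
  unfold stalkSubring
  rw [Subring.mem_iSup_of_directed (directed_range A J 𝔭)]
  constructor
  · rintro ⟨⟨f, hf⟩, hx⟩
    exact ⟨f, hf, hx⟩
  · rintro ⟨f, hf, hx⟩
    exact ⟨⟨f, hf⟩, hx⟩

theorem range_le_stalkSubring (f : A) (hf : f ∉ 𝔭) :
    (cAwayToAtPrime A J 𝔭 f hf).range ≤ stalkSubring A J 𝔭 :=
  le_iSup (fun f : {f : A // f ∉ 𝔭} => (cAwayToAtPrime A J 𝔭 f.1 f.2).range) ⟨f, hf⟩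

/-- Finitely many elements of `A_{S}` come from one `A_{f}`. -/
theorem exists_range_of_forall_mem {ι : Type*} [Finite ι] (x : ι → cAtPrime A J 𝔭)
    (hx : ∀ i, x i ∈ stalkSubring A J 𝔭) :
    ∃ (f : A) (hf : f ∉ 𝔭), ∀ i, x i ∈ (cAwayToAtPrime A J 𝔭 f hf).range := by
  classical
  have := Fintype.ofFinite ι
  choose f hf hfx using fun i => (mem_stalkSubring_iff A J 𝔭 (x i)).1 (hx i)
  have hprod : ∏ i, f i ∉ 𝔭 := by
    rw [Ideal.IsPrime.prod_mem_iff]
    rintro ⟨i, -, hi⟩
    exact hf i hi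
  exact ⟨∏ i, f i, hprod, fun i => range_le_of_dvd A J 𝔭 (f i) _ (hf i) hprod
    (Finset.dvd_prod_of_mem f (Finset.mem_univ i)) (hfx i)⟩

theorem flat_awayToAtPrime (f : A) (hf : f ∉ 𝔭) : (awayToAtPrime A 𝔭 f hf).Flat := by
  let _ : Algebra (Localization.Away f) (Localization.AtPrime 𝔭) := (awayToAtPrime A 𝔭 f hf).toAlgebra
  have _ : IsScalarTower A (Localization.Away f) (Localization.AtPrime 𝔭) :=
    IsScalarTower.of_algebraMap_eq' (awayToAtPrime_comp A 𝔭 f hf).symm
  have hle : Submonoid.powers f ≤ 𝔭.primeCompl := by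
    rw [Submonoid.powers_le]
    exact hf
  have := IsLocalization.isLocalization_of_submonoid_le (Localization.Away f) (Localization.AtPrime 𝔭)
    (Submonoid.powers f) 𝔭.primeCompl hle
  exact IsLocalization.flat (Localization.AtPrime 𝔭) (𝔭.primeCompl.map (algebraMap A (Localization.Away f)))

variable [IsNoetherianRing A]

/-- `A_{f} → A{S⁻¹}` is flat. -/
theorem flat_cAwayToAtPrime (f : A) (hf : f ∉ 𝔭) : (cAwayToAtPrime A J 𝔭 f hf).Flat := by
  have : IsNoetherianRing (Localization.Away f) :=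
    IsLocalization.isNoetherianRing (Submonoid.powers f) _ inferInstance
  have : IsNoetherianRing (Localization.AtPrime 𝔭) :=
    IsLocalization.isNoetherianRing 𝔭.primeCompl _ inferInstance
  exact flat_complMap _ _ _ _ (flat_awayToAtPrime A 𝔭 f hf)

/-- `A{S⁻¹}` is flat over `A_{S}`. -/
theorem flat_stalkSubring : Module.Flat (stalkSubring A J 𝔭) (cAtPrime A J 𝔭) := by
  rw [Module.Flat.iff_forall_isTrivialRelation]
  intro l r x hrx
  obtain ⟨f, hf, hr⟩ := exists_range_of_forall_mem A J 𝔭 (fun i => (r i : cAtPrime A J 𝔭))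
    (fun i => (r i).2)
  choose s hs using hr
  let _ : Algebra (cAway A J f) (cAtPrime A J 𝔭) := (cAwayToAtPrime A J 𝔭 f hf).toAlgebra
  have _ : Module.Flat (cAway A J f) (cAtPrime A J 𝔭) := flat_cAwayToAtPrime A J 𝔭 f hf
  have h1 : ∑ i, s i • x i = 0 := by
    rw [← hrx]
    refine Finset.sum_congr rfl fun i _ => ?_
    rw [Algebra.smul_def, Subring.smul_def, smul_eq_mul, ← hs]
    rfl
  obtain ⟨k, a, y, h2, h3⟩ := Module.Flat.isTrivialRelation_of_sum_smul_eq_zero h1
  refine ⟨k, fun i j => ⟨cAwayToAtPrime A J 𝔭 f hf (a i j),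
    range_le_stalkSubring A J 𝔭 f hf ⟨_, rfl⟩⟩, y, fun i => ?_, fun j => ?_⟩
  · rw [h2 i]
    refine Finset.sum_congr rfl fun j _ => ?_
    rw [Algebra.smul_def, Subring.smul_def, smul_eq_mul]
    rfl
  · apply Subtype.ext
    have h4 := congrArg (cAwayToAtPrime A J 𝔭 f hf) (h3 j)
    rw [map_sum, map_zero] at h4
    rw [← Subring.coe_subtype, map_sum, map_zero, ← h4]
    refine Finset.sum_congr rfl fun i _ => ?_
    rw [map_mul, map_mul, hs]
    rfl

end Stalk

end Groth.Agent.Fcompl.H558.FlatCompl
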